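import Cfsg.Agent.RealDisc.Basic
import Cfsg.Agent.S1224
import Cfsg.Agent.S0675
import Cfsg.Agent.Perm.SchurRing

/-!
The trivial intersection case, the case of dimension six and the counting argument.
-/

set_option autoImplicit false

open Subgroup MulAction
open scoped Pointwise

namespace Cfsg.Lib.RealDisc

open Cfsg.Lib.Solv Cfsg.Lib.Solv.ClassSize Cfsg.Lib.Solv.Real Cfsg.Lib.Block.TwoGood

section Gen

variable {G : Type*} [Group G] [Finite G]

theorem exists_prime_pow_mem {p : ℕ} [hp : Fact p.Prime] {x : G} {k : ℕ} (hx : x ^ p ^ k = 1)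
    (h1 : x ≠ 1) : ∃ u ∈ zpowers x, orderOf u = p := by
  obtain ⟨j, -, hj⟩ := (Nat.dvd_prime_pow hp.out).1 (orderOf_dvd_of_pow_eq_one hx)
  have hd : p ∣ orderOf x := by
    rw [hj]
    refine dvd_pow_self p fun e => h1 (orderOf_eq_one_iff.1 ?_)
    rw [hj, e, pow_zero]
  exact ⟨x ^ (orderOf x / p), pow_mem (mem_zpowers x) _,
    orderOf_pow_orderOf_div (orderOf_pos x).ne' hd⟩

omit [Finite G] in
theorem mul_self_of_orderOf {u : G} (h : orderOf u = 2) : u * u = 1 ∧ u ≠ 1 :=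
  ⟨by rw [← sq, ← h, pow_orderOf_eq_one], fun e => by rw [e, orderOf_one] at h; omega⟩

omit [Finite G] in
theorem pow_eq_one_of_mem {p : ℕ} {Q : Subgroup G} (hQ : IsPGroup p Q) {x : G} (hx : x ∈ Q) :
    ∃ k, x ^ p ^ k = 1 := by
  obtain ⟨k, hk⟩ := hQ ⟨x, hx⟩
  exact ⟨k, by simpa using congrArg Subtype.val hk⟩

theorem exists_central_prime {p : ℕ} [hp : Fact p.Prime] {Q : Subgroup G} (hQ : IsPGroup p Q)
    (hne : Q ≠ ⊥) : ∃ z ∈ Q, orderOf z = p ∧ ∀ s ∈ Q, s * z = z * s := by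
  have : Nontrivial Q := (nontrivial_iff_ne_bot Q).2 hne
  have := hQ.center_nontrivial
  obtain ⟨x, hx⟩ := exists_ne (1 : center Q)
  obtain ⟨k, hk⟩ := pow_eq_one_of_mem hQ x.1.2
  obtain ⟨u, hu, ho⟩ := exists_prime_pow_mem hk
    (fun e => hx (Subtype.ext (Subtype.ext e)))
  refine ⟨u, (zpowers_le.2 x.1.2) hu, ho, fun s hs => ?_⟩
  have h1 : s ∈ centralizer ({(x.1 : G)} : Set G) :=
    mem_cent.2 (congrArg Subtype.val (mem_center_iff.1 x.2 ⟨s, hs⟩))
  exact mem_cent.1 (cent_le_cent_of_mem_zpowers hu h1)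

theorem exists_smul_eq_of_le {p : ℕ} [Fact p.Prime] {C : Subgroup G} (P Q : Sylow p G)
    (hP : (P : Subgroup G) ≤ C) (hQ : (Q : Subgroup G) ≤ C) : ∃ c ∈ C, c • P = Q := by
  obtain ⟨c, hc⟩ := exists_smul_eq C (P.subtype hP) (Q.subtype hQ)
  rw [Sylow.smul_subtype] at hc
  exact ⟨c, c.2, Sylow.subtype_injective hc⟩

omit [Finite G] in
open Cfsg.Lib.Perm.Schur in
/-- Burnside and Schur: a primitive insoluble group with a transitive cyclic subgroup. -/
theorem two_trans {Ω : Type*} [MulAction G Ω] [Finite Ω] [Nontrivial Ω]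
    (hprim : IsPreprimitive G Ω) (T : Subgroup G) (hT : IsCyclic T)
    (htr : ∀ a b : Ω, ∃ t ∈ T, t • a = b) (hns : ¬ Group.IsSolvable (toPermHom G Ω).range)
    {a b c d : Ω} (hab : a ≠ b) (hcd : c ≠ d) : ∃ g : G, g • a = c ∧ g • b = d := by
  classical
  have := Fintype.ofFinite Ω
  let f : Ω →ₑ[(toPermHom G Ω).rangeRestrict] Ω := ⟨id, fun _ _ => rfl⟩
  have hp : IsPreprimitive (toPermHom G Ω).range Ω :=
    IsPreprimitive.of_surjective (f := f) Function.surjective_id
  suffices h : IsMultiplyPretransitive (toPermHom G Ω).range Ω 2 by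
    obtain ⟨⟨_, g, rfl⟩, e⟩ := is_two_pretransitive_iff.1 h hab hcd
    exact ⟨g, e⟩
  by_cases hpr : (Fintype.card Ω).Prime
  · exact (Cfsg.Agent.S0675.result hpr (toPermHom G Ω).range).resolve_left hns
  let C := T.map (toPermHom G Ω).rangeRestrict
  have hcyc : IsCyclic C := isCyclic_of_surjective _
    ((toPermHom G Ω).rangeRestrict.subgroupMap_surjective T)
  have hCtr : IsPretransitive C Ω := ⟨fun x y => by
    obtain ⟨t, ht, e⟩ := htr x y
    exact ⟨⟨_, t, ht, rfl⟩, e⟩⟩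
  let _ : CommGroup C := IsCyclic.commGroup
  have hst : stabilizer C a = ⊥ := by
    rw [eq_bot_iff]
    intro t ht
    refine eq_of_smul_eq_smul (α := Ω) fun x => ?_
    obtain ⟨s, rfl⟩ := hCtr.exists_smul_eq a x
    rw [← mul_smul, mul_comm, mul_smul, ht, one_smul]
  obtain ⟨χ, -, hχ⟩ := exists_equiv_of_regular C hCtr a hst
  have hcard : Nat.card C = Fintype.card Ω := by rw [Nat.card_congr χ, Nat.card_eq_fintype_card]
  have hq : (Fintype.card Ω).minFac.Prime := Nat.minFac_prime Fintype.one_lt_card.ne'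
  obtain ⟨e, he, hE⟩ := exists_unique_order_prime (A := C) hcyc hq
    (by rw [hcard]; exact Nat.minFac_dvd _)
  apply two_pretransitive_of_orb χ hχ
  intro s t hs ht
  refine mem_orb_of_primitive (A := C) hχ hq he hE ?_ (invSub_trivial_of_primitive χ) hs ht
  intro h
  have := Nat.card_zpowers e
  rw [h, card_top, he, hcard] at this
  exact hpr (this ▸ hq)

end Gen

section Mod

variable {π : Set ℕ} {E V : Type*} [Group E] [CommGroup V] [MulDistribMulAction E V]
  [Finite E] [Finite V] [FaithfulSMul E V]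

/-- The trivial intersection case. -/
theorem Hyp.ti_false [Nontrivial V] (h : Hyp π E V) (hns : ¬ Group.IsSolvable E)
    (hti : ∀ S T : Sylow 2 E, S ≠ T → (S : Subgroup E) ⊓ T = ⊥) : False := by
  obtain ⟨S⟩ : Nonempty (Sylow 2 E) := inferInstance
  have hSn : ¬ (S : Subgroup E).Normal := fun hn => hns (Cor.isSolvable_of_normal_sylow_two S hn)
  have hS : (S : Subgroup E) ≠ ⊥ := fun e => hSn (e ▸ normal_bot)
  obtain ⟨z, hz, ho, hc⟩ := exists_central_prime S.isPGroup' hS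
  obtain ⟨hz2, hz1⟩ := mul_self_of_orderOf ho
  have h1 : fx V z ≤ Cf V (S : Subgroup E) := fun v hv => by
    by_cases hv1 : v = 1
    · rw [hv1]; exact one_mem _
    obtain ⟨T, hT, -⟩ := h.exists_sy hv1
    have hzT := h.mem_sy hv1 (mem_Cf.2 hT) (k := 1) (by rw [pow_one, pow_two, hz2]) hv
    by_cases e : S = T
    · rw [e]; exact hT
    · exact (hz1 (mem_bot.1 (hti S T e ▸ mem_inf.2 ⟨hz, hzT⟩))).elim
  have h2 : ∀ s ∈ (S : Subgroup E), s * s = 1 := fun s hs => by
    refine eq_one_of_fix (V := V) fun w => ?_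
    have h3 : dl V z w ∈ Cf V (S : Subgroup E) :=
      h1 ((card_le_sq_fx h.sq hz2).1 ⟨w, rfl⟩)
    have h4 : dl V s w ∈ Cf V (S : Subgroup E) := by
      apply h1
      rw [← ker_dl, MonoidHom.mem_ker, dl_apply s, map_mul, map_inv, ← smul_dl (hc s hs),
        h3 s hs, mul_inv_cancel]
    rw [← mem_fx, ← ker_dl, MonoidHom.mem_ker, ← dl_dl h.sq, ← MonoidHom.mem_ker, ker_dl]
    exact h4 s hs
  obtain ⟨t, ht, htz⟩ : ∃ t ∈ (S : Subgroup E), t ∉ zpowers z := by
    by_contra hcon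
    push Not at hcon
    have e : (S : Subgroup E) = zpowers z := le_antisymm hcon (zpowers_le.2 hz)
    exact hns (Cor.isSolvable_of_isCyclic_sylow_two S (e ▸ inferInstance))
  have ht1 : t ≠ 1 := fun e => htz (e ▸ one_mem _)
  have hot : orderOf t = 2 := orderOf_eq_prime (by rw [pow_two, h2 t ht]) ht1
  set H := normalizer ((S : Subgroup E) : Set E) with hH
  have hHt : H ≠ ⊤ := fun e => hSn (normalizer_eq_top_iff.1 e)
  have hodd : ∀ g : E, g ∉ H → Odd (Nat.card ↥(H ⊓ H.map (MulAut.conj g).toMonoidHom)) := by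
    intro g hg
    rw [← Nat.not_even_iff_odd, even_iff_two_dvd]
    intro hd
    obtain ⟨⟨i, hi1, j, hj, rfl⟩, hi⟩ := exists_prime_orderOf_dvd_card' 2 hd
    rw [← orderOf_coe] at hi
    obtain ⟨hi2, hi3⟩ := mul_self_of_orderOf hi
    have hj2 : j ^ 2 ^ 1 = 1 := by
      apply (MulAut.conj g).injective
      rw [pow_one, pow_two, map_mul, map_one]; exact hi2
    have hA := mem_sylow_of_mem_normalizer S (k := 1) (by rw [pow_one, pow_two]; exact hi2) hi1
    have hB : (MulAut.conj g).toMonoidHom j ∈ ((g • S : Sylow 2 E) : Subgroup E) := by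
      rw [Sylow.coe_subgroup_smul]
      exact smul_mem_pointwise_smul _ _ _ (mem_sylow_of_mem_normalizer S hj2 hj)
    have hne : S ≠ g • S := fun e => hg (Sylow.smul_eq_iff_mem_normalizer.1 e.symm)
    exact hi3 (mem_bot.1 (hti _ _ hne ▸ mem_inf.2 ⟨hA, hB⟩))
  have hse : Cfsg.IsStronglyEmbedded H := ⟨hHt, even_iff_two_dvd.2
    (ho ▸ orderOf_dvd_natCard H (le_normalizer hz)), hodd⟩
  obtain ⟨g, hg⟩ : ∃ g, g ∉ H := by
    by_contra hcon
    push Not at hcon
    exact hHt (eq_top_iff.2 fun g _ => hcon g)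
  have hxy : ((1 : E) : E ⧸ H) ≠ (g : E ⧸ H) := fun e => hg (by simpa using QuotientGroup.eq.1 e)
  have h5 := Cfsg.Agent.S1224.result H hse _ _ hxy
  have h6 : Nontrivial {t : E // orderOf t = 2 ∧ t ∈ H} :=
    ⟨⟨⟨t, hot, le_normalizer ht⟩, ⟨z, ho, le_normalizer hz⟩,
      fun e => htz (by rw [show t = z from congrArg Subtype.val e]; exact mem_zpowers z)⟩⟩
  have h7 : Nontrivial {i : E // orderOf i = 2 ∧ i • ((1 : E) : E ⧸ H) = (g : E ⧸ H)} := by
    rw [← Finite.one_lt_card_iff_nontrivial] at h6 ⊢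
    rwa [h5]
  obtain ⟨⟨i, hi, hi'⟩, ⟨j, hj, hj'⟩, hij⟩ := h7
  obtain ⟨hi2, -⟩ := mul_self_of_orderOf hi
  obtain ⟨hj2, -⟩ := mul_self_of_orderOf hj
  have ii : i⁻¹ = i := inv_eq_of_mul_eq_one_right hi2
  have jj : j⁻¹ = j := inv_eq_of_mul_eq_one_right hj2
  rw [MulAction.Quotient.smul_coe, smul_eq_mul, mul_one, QuotientGroup.eq] at hi' hj'
  rw [ii] at hi'
  rw [jj] at hj'
  have h8 : i * j ∈ H := by
    have := mul_mem hi' (inv_mem hj')
    rwa [show i * g * (j * g)⁻¹ = i * j⁻¹ by group, jj] at this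
  have h9 : i * j ∈ H.map (MulAut.conj g).toMonoidHom := by
    refine ⟨(i * g)⁻¹ * (j * g), mul_mem (inv_mem hi') hj', ?_⟩
    change g * ((i * g)⁻¹ * (j * g)) * g⁻¹ = i * j
    rw [show g * ((i * g)⁻¹ * (j * g)) * g⁻¹ = i⁻¹ * j by group, ii]
  have h10 : Odd (orderOf (i * j)) :=
    (hodd g hg).of_dvd_nat (orderOf_dvd_natCard _ (mem_inf.2 ⟨h8, h9⟩))
  have h11 : i * j ≠ 1 := fun e => hij (Subtype.ext (by
    change i = j
    rw [← jj]; exact eq_inv_of_mul_eq_one_left e))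
  obtain ⟨y, hy, hy1, -, hr, -⟩ := exists_RO_of_inverted (g := i) h10 h11 (by
    rw [mul_inv_rev, ii, jj, ← mul_assoc, hi2, one_mul])
  exact h.not_mem_normalizer hr hy1 S ((zpowers_le.2 h8) hy)

theorem Hyp.card_fx_four (h : Hyp π E V) {s : E} (h4 : s * s * (s * s) = 1) (h2 : s * s ≠ 1) :
    Nat.card (fx V (s * s)) = Nat.card (fx V s) * Nat.card (fx V s) := by
  have hr := (h.card_fx h4 h2).2
  have hle : fx V s ≤ fx V (s * s) := fun x hx => by
    rw [mem_fx] at hx ⊢
    rw [mul_smul, hx, hx]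
  have h1 := card_eq_mul_dl s (fx V (s * s))
  rw [inf_eq_right.2 hle] at h1
  rw [h1]
  congr 2
  have : (fx V (s * s)).map (dl V s) = fx V s := by
    apply le_antisymm
    · rintro _ ⟨x, hx, rfl⟩
      rw [← ker_dl, MonoidHom.mem_ker, dl_dl h.sq, ← MonoidHom.mem_ker, ker_dl]
      exact hx
    · intro y hy
      have hy' := hle hy
      rw [← hr] at hy'
      obtain ⟨w, rfl⟩ := hy'
      refine ⟨dl V s w, ?_, dl_dl h.sq s w⟩
      rw [SetLike.mem_coe, ← ker_dl, MonoidHom.mem_ker, ← dl_dl h.sq, dl_dl h.sq s w,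
        ← MonoidHom.mem_ker, ker_dl]
      exact hy
  rw [this]

/-- The case of dimension six. -/
theorem Hyp.six_false (h : Hyp π E V) (hV : Nat.card V = 64) (S : Sylow 2 E)
    (hS : (S : Subgroup E) ≠ ⊥) (ha : Nat.card (Cf V (S : Subgroup E)) = 2) : False := by
  have h8 : ∀ u : E, u * u = 1 → u ≠ 1 → Nat.card (fx V u) = 8 := fun u hu hu1 => by
    have := (h.card_fx hu hu1).1
    rw [hV] at this
    nlinarith
  have hexp : ∀ (k : ℕ) (s : E), s ^ 2 ^ k = 1 → s * s = 1 := by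
    intro k
    induction k with
    | zero => intro s hs; rw [pow_zero, pow_one] at hs; rw [hs, one_mul]
    | succ k ih =>
      intro s hs
      have h4 := ih (s * s) (by rw [← pow_two, ← pow_mul, ← pow_succ']; exact hs)
      by_contra h2
      have h5 := h.card_fx_four h4 h2
      rw [h8 _ h4 h2] at h5
      generalize Nat.card (fx V s) = n at h5
      have : n ≤ 2 := by nlinarith
      nlinarith
  have hcomm : ∀ (T : Sylow 2 E), ∀ a ∈ (T : Subgroup E), ∀ b ∈ (T : Subgroup E), a * b = b * a :=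
    fun T a ha b hb => mul_comm_of_forall_sq_eq_one (H := (T : Subgroup E)) (fun x hx => by
      obtain ⟨k, hk⟩ := pow_eq_one_of_mem T.isPGroup' hx
      rw [pow_two, hexp k x hk]) ha hb
  obtain ⟨z, hz, ho, -⟩ := exists_central_prime S.isPGroup' hS
  obtain ⟨hz2, hz1⟩ := mul_self_of_orderOf ho
  have hX := h8 z hz2 hz1
  obtain ⟨x, hx, hxS⟩ : ∃ x ∈ fx V z, x ∉ Cf V (S : Subgroup E) := by
    by_contra hcon
    push Not at hcon
    have := card_le_of_le (show fx V z ≤ Cf V (S : Subgroup E) from hcon)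
    omega
  obtain ⟨s, hs, hsx⟩ : ∃ s ∈ (S : Subgroup E), s • x ≠ x := by
    by_contra hcon
    push Not at hcon
    exact hxS hcon
  obtain ⟨k, hk⟩ := pow_eq_one_of_mem S.isPGroup' hs
  have hs2 := hexp k s hk
  have hc1 : dl V s x ≠ 1 := fun e => hsx (by rwa [← mem_fx, ← ker_dl])
  have hle : (fx V z).map (dl V s) ≤ fx V z ⊓ fx V s := by
    rintro _ ⟨y, hy, rfl⟩
    refine ⟨?_, (card_le_sq_fx h.sq hs2).1 ⟨y, rfl⟩⟩
    change z • dl V s y = dl V s y
    rw [smul_dl (hcomm S z hz s hs), mem_fx.1 hy]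
  have hm := card_eq_mul_dl s (fx V z)
  have hcx : dl V s x ∈ (fx V z).map (dl V s) := ⟨x, hx, rfl⟩
  have hn1 : 1 < Nat.card ((fx V z).map (dl V s)) :=
    (one_lt_card_iff_ne_bot _).2 fun e => hc1 (mem_bot.1 (e ▸ hcx))
  have hn2 := card_le_of_le hle
  have hI : Nat.card ((fx V z).map (dl V s)) = 2 := by
    rw [hX] at hm
    generalize Nat.card ((fx V z).map (dl V s)) = m at *
    generalize Nat.card (fx V z ⊓ fx V s : Subgroup V) = n at *
    have : m ≤ 2 := by nlinarith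
    omega
  have hK : Nat.card (fx V z ⊓ fx V s : Subgroup V) = 4 := by rw [hX, hI] at hm; omega
  have two : ∀ {U : Subgroup V}, Nat.card U = 2 → ∀ {a b : V}, a ∈ U → b ∈ U → a ≠ 1 → b ≠ 1 →
      a = b := fun {U} hU {a b} ha hb ha1 hb1 => by
    obtain ⟨y, -, hy⟩ := (Nat.card_eq_two_iff' (1 : U)).1 hU
    have := (hy ⟨a, ha⟩ fun e => ha1 (congrArg Subtype.val e)).trans
      (hy ⟨b, hb⟩ fun e => hb1 (congrArg Subtype.val e)).symm
    exact congrArg Subtype.val this
  have hfix : ∀ T : Sylow 2 E, z ∈ (T : Subgroup E) → s ∈ (T : Subgroup E) →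
      dl V s x ∈ Cf V (T : Subgroup E) := fun T hzT hsT g hg => by
    refine two hI ?_ hcx ?_ hc1
    · rw [smul_dl (hcomm T g hg s hsT)]
      refine ⟨g • x, ?_, rfl⟩
      change z • g • x = g • x
      rw [← mul_smul, hcomm T z hzT g hg, mul_smul, mem_fx.1 hx]
    · intro e
      exact hc1 ((smul_eq_iff_eq_inv_smul g).1 e |>.trans (smul_one _))
  obtain ⟨w, hw, hwI⟩ : ∃ w ∈ fx V z ⊓ fx V s, w ∉ (fx V z).map (dl V s) := by
    by_contra hcon
    push Not at hcon
    have := card_le_of_le (show fx V z ⊓ fx V s ≤ (fx V z).map (dl V s) from hcon)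
    omega
  have hw1 : w ≠ 1 := fun e => hwI (e ▸ one_mem _)
  obtain ⟨T, hT, -⟩ := h.exists_sy hw1
  have hzT := h.mem_sy hw1 (mem_Cf.2 hT) (k := 1) (by rw [pow_one, pow_two, hz2]) hw.1
  have hsT := h.mem_sy hw1 (mem_Cf.2 hT) hk hw.2
  obtain rfl : T = S := h.sy_eq hc1 (hfix T hzT hsT) (hfix S hz hs)
  exact hwI (two ha (mem_Cf.2 hT) (hfix T hz hs) hw1 hc1 ▸ hcx)

theorem num_false {a b r e m : ℕ} (ha : 2 ≤ a) (haq : a * a ≤ a + b)
    (hr : (a + b) * (a + b) = a + b + r) (hN : 2 + e + m ≤ a * (2 + e))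
    (l3 : (a + b + r) * (2 + e) + a * m ≤ (2 + e + m) * (a + b) + r) : False := by
  obtain ⟨c, rfl⟩ : ∃ c, a = c + 1 := ⟨a - 1, by omega⟩
  have k1 : m * b ≤ c * (2 + e) * b := Nat.mul_le_mul_right _ (by nlinarith)
  have k2 : r * (1 + e) ≤ m * b := by nlinarith
  have k3 : 2 * c ≤ c + b := by nlinarith
  have k4 : 2 * c * b < r := by nlinarith
  have k5 : 2 * c * b * (1 + e) < r * (1 + e) := Nat.mul_lt_mul_of_pos_right k4 (by omega)
  nlinarith [Nat.zero_le (c * e * b)]

/-- The counting argument. -/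
theorem Hyp.count_false (h : Hyp π E V) (S : Sylow 2 E) {q d : ℕ} (hq : q * q = Nat.card V)
    (ha : 2 ≤ Nat.card (Cf V (S : Subgroup E)))
    (haq : Nat.card (Cf V (S : Subgroup E)) * Nat.card (Cf V (S : Subgroup E)) ≤ q) (hd2 : 2 ≤ d)
    (hd : ∀ T : Sylow 2 E, T ≠ S → d ≤ Nat.card ((S : Subgroup E) ⊓ T : Subgroup E))
    (hN : Nat.card (S : Subgroup E) ≤ Nat.card (Cf V (S : Subgroup E)) * d) : False := by
  classical
  have := Fintype.ofFinite V
  have := Fintype.ofFinite E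
  have e1 : ∑ s : (S : Subgroup E), (Finset.univ.filter fun w : V => (s : E) • w = w).card =
      ∑ w : V, (Finset.univ.filter fun s : (S : Subgroup E) => (s : E) • w = w).card := by
    simp only [Finset.card_filter]
    exact Finset.sum_comm
  have u1 : ∀ s : (S : Subgroup E), (Finset.univ.filter fun w : V => (s : E) • w = w).card ≤
      q + if s = 1 then q * q - q else 0 := fun s => by
    split_ifs with hs
    · have h1 := Finset.card_le_univ (Finset.univ.filter fun w : V => (s : E) • w = w)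
      rw [← Nat.card_eq_fintype_card, ← hq] at h1
      omega
    · obtain ⟨k, hk⟩ := pow_eq_one_of_mem S.isPGroup' s.2
      obtain ⟨u, hu, ho⟩ := exists_prime_pow_mem hk fun e => hs (Subtype.ext e)
      obtain ⟨hu2, hu1⟩ := mul_self_of_orderOf ho
      have h1 := (h.card_fx hu2 hu1).1
      rw [← hq] at h1
      rw [add_zero, ← Nat.mul_self_inj.1 h1, ← Fintype.card_subtype, ← Nat.card_eq_fintype_card]
      exact card_le_of_le (show fx V (s : E) ≤ fx V u from fun w hw =>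
        (zpowers_le.2 (show (s : E) ∈ stabilizer E w from hw)) hu)
  have l1 : ∀ w : V, (d + if w ∈ Cf V (S : Subgroup E) then Nat.card (S : Subgroup E) - d else 0) ≤
      (Finset.univ.filter fun s : (S : Subgroup E) => (s : E) • w = w).card +
        if w ∈ Cf V (S : Subgroup E) then d - Nat.card (S : Subgroup E) else 0 := fun w => by
    split_ifs with hw
    · rw [Finset.filter_true_of_mem fun (s : (S : Subgroup E)) _ => hw s s.2, Finset.card_univ,
        ← Nat.card_eq_fintype_card]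
      omega
    · have hw1 : w ≠ 1 := fun e => hw (e ▸ one_mem _)
      obtain ⟨T, hT, -⟩ := h.exists_sy hw1
      have hne : T ≠ S := fun e => hw (e ▸ mem_Cf.2 hT)
      rw [add_zero, add_zero, ← Fintype.card_subtype, ← Nat.card_eq_fintype_card]
      refine (hd T hne).trans (Nat.card_le_card_of_injective
        (fun x => ⟨⟨x.1, x.2.1⟩, hT x.2.2⟩) fun a b e => ?_)
      exact Subtype.ext (congrArg (fun x => x.1.1) e)
  have hqa : Nat.card (Cf V (S : Subgroup E)) < q * q := by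
    generalize Nat.card (Cf V (S : Subgroup E)) = a at ha haq ⊢
    have : a < q := by nlinarith
    nlinarith
  obtain ⟨w, hw⟩ : ∃ w, w ∉ Cf V (S : Subgroup E) := by
    by_contra hcon
    push Not at hcon
    rw [(eq_top_iff' _).2 hcon, card_top, hq] at hqa
    omega
  have hdN : d ≤ Nat.card (S : Subgroup E) := by
    have hw1 : w ≠ 1 := fun e => hw (e ▸ one_mem _)
    obtain ⟨T, hT, -⟩ := h.exists_sy hw1
    exact (hd T fun e => hw (e ▸ mem_Cf.2 hT)).trans (card_le_of_le inf_le_left)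
  have u2 := Finset.sum_le_sum fun s (_ : s ∈ Finset.univ) => u1 s
  have l2 := Finset.sum_le_sum fun w (_ : w ∈ Finset.univ) => l1 w
  simp only [Nat.sub_eq_zero_of_le hdN, ite_self, add_zero] at l2
  rw [Finset.sum_add_distrib, Finset.sum_const, Finset.sum_ite_eq', if_pos (Finset.mem_univ _),
    Finset.card_univ, ← Nat.card_eq_fintype_card, smul_eq_mul] at u2
  rw [Finset.sum_add_distrib, Finset.sum_const, ← Finset.sum_filter, Finset.sum_const,
    Finset.card_univ, ← Nat.card_eq_fintype_card, smul_eq_mul, smul_eq_mul, ← Fintype.card_subtype,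
    ← Nat.card_eq_fintype_card, ← hq, ← e1] at l2
  have l3 := l2.trans u2
  change q * q * d + Nat.card (Cf V (S : Subgroup E)) * _ ≤ _ at l3
  generalize Nat.card (Cf V (S : Subgroup E)) = a at *
  generalize Nat.card (S : Subgroup E) = N at *
  obtain ⟨m, rfl⟩ := Nat.exists_eq_add_of_le hdN
  obtain ⟨r, hr⟩ : ∃ r, q * q = q + r := Nat.exists_eq_add_of_le (by nlinarith)
  rw [Nat.add_sub_cancel_left, hr, Nat.add_sub_cancel_left] at l3
  obtain ⟨b, rfl⟩ : ∃ b, q = a + b := Nat.exists_eq_add_of_le (by nlinarith)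
  obtain ⟨e, rfl⟩ := Nat.exists_eq_add_of_le hd2
  exact num_false ha haq hr hN l3

end Mod

end Cfsg.Lib.RealDisc
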